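import Mathlib
import Cfsg.Agent.Lib.ClassLower.Monomial
import Cfsg.Agent.Lib.ClassLowerSharp.Quot
import Cfsg.Agent.Lib.ClassLowerSharp.Perm

/-!
Irreducible solvable groups with a non-scalar abelian normal subgroup: equal blocks.
-/

set_option autoImplicit false
set_option linter.style.haveILetI false

namespace CfsgLib.ClassLowerSharp

open Module CfsgLib.ClassLower

universe u v w

/-- A bound `B b / 10` in every dimension `b` less than `d`. -/
def Below (k : Type w) [Field k] (B : ℕ → ℕ) (d : ℕ) : Prop :=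
  ∀ (Y : Type u) [Group Y] [Finite Y] [Group.IsSolvable Y] (V : Type v) [AddCommGroup V]
    [Module k V] [FiniteDimensional k V] (ρ : Y →* Module.End k V),
    Function.Injective ρ → IsIrr ρ → finrank k V < d → RQ Y (B (finrank k V)) 10

variable {k : Type w} [Field k] {Y : Type u} [Group Y] {V : Type v} [AddCommGroup V] [Module k V]

/-- The bound for the group induced on an invariant subspace with irreducible action. -/
theorem exists_block_bound [Finite Y] [Group.IsSolvable Y] [FiniteDimensional k V] {B : ℕ → ℕ}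
    {d : ℕ} (hIH : Below.{u, v, w} k B d) (ρ : Y →* Module.End k V) (S : Subgroup Y)
    (E : Submodule k V) (hE0 : E ≠ ⊥) (hEd : finrank k E < d)
    (hinv : ∀ g ∈ S, ∀ x ∈ E, ρ g x ∈ E)
    (hirrE : ∀ W : Submodule k V, W ≤ E → W ≠ ⊥ → (∀ g ∈ S, ∀ x ∈ W, ρ g x ∈ W) → W = E)
    (K : Subgroup Y) (hKS : K ≤ S) :
    ∃ (Q : Type u) (_ : Group Q) (_ : Finite Q) (τ : K →* Q),
      RQ Q (B (finrank k E)) 10 ∧ ∀ g, τ g = 1 → ∀ x ∈ E, ρ (g : Y) x = x := by
  let σ : S →* Module.End k E :=
    { toFun := fun g => (ρ (g : Y)).restrict (hinv g g.2)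
      map_one' := LinearMap.ext fun x => Subtype.ext (by simp)
      map_mul' := fun g h => LinearMap.ext fun x => Subtype.ext (by simp) }
  have happ : ∀ (g : S) (x : E), (σ g x : V) = ρ (g : Y) x := fun g x => rfl
  clear_value σ
  obtain ⟨σb, hσb, hinj⟩ : ∃ σb : S ⧸ σ.ker →* Module.End k E,
      (∀ g : S, σb (QuotientGroup.mk g) = σ g) ∧ Function.Injective σb := by
    refine ⟨QuotientGroup.lift σ.ker σ le_rfl, fun g => rfl, ?_⟩
    rw [injective_iff_map_eq_one]
    intro q hq
    induction q using QuotientGroup.induction_on with | _ g =>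
    exact (QuotientGroup.eq_one_iff _).mpr (MonoidHom.mem_ker.mpr hq)
  have hirrb : IsIrr σb := by
    refine ⟨Submodule.nontrivial_iff_ne_bot.mpr hE0, fun W hW => ?_⟩
    by_cases hW0 : W = ⊥
    · exact Or.inl hW0
    right
    have h1 : W.map E.subtype = E := by
      refine hirrE _ (Submodule.map_subtype_le _ _)
        (fun h => hW0 (Submodule.map_injective_of_injective Subtype.val_injective
          (h.trans (Submodule.map_bot _).symm))) ?_
      rintro g hg _ ⟨x, hx, rfl⟩
      refine ⟨σ ⟨g, hg⟩ x, ?_, happ _ _⟩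
      rw [← hσb]
      exact hW _ x hx
    exact Submodule.map_injective_of_injective Subtype.val_injective
      (h1.trans (Submodule.map_subtype_top E).symm)
  refine ⟨S ⧸ σ.ker, inferInstance, inferInstance,
    (QuotientGroup.mk' σ.ker).comp (Subgroup.inclusion hKS),
    hIH (S ⧸ σ.ker) E σb hinj hirrb hEd, fun g hg x hx => ?_⟩
  have h1 : σ (Subgroup.inclusion hKS g) = 1 := (QuotientGroup.eq_one_iff _).mp hg
  have h2 := happ (Subgroup.inclusion hKS g) ⟨x, hx⟩
  rw [h1] at h2
  exact h2.symm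

theorem blocks_case [IsAlgClosed k] [Finite Y] [Group.IsSolvable Y] [FiniteDimensional k V]
    (ρ : Y →* Module.End k V) (hinj : Function.Injective ρ) (hirr : IsIrr ρ) {B : ℕ → ℕ}
    (hIH : Below.{u, v, w} k B (finrank k V)) (N : Subgroup Y) (hNn : N.Normal)
    (hNc : ∀ a ∈ N, ∀ b ∈ N, a * b = b * a) (hns : ∃ g ∈ N, ∀ c : k, ρ g ≠ c • 1) :
    ∃ n b T, 2 ≤ n ∧ 1 ≤ b ∧ n * b = finrank k V ∧ T ≤ 3 ^ (n - 1) ∧ T ≤ n.factorial ∧
      RQ Y (T ^ 2 * B b ^ n) (10 ^ n) := by
  classical
  have : Nontrivial V := hirr.1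
  let f : N → Module.End k V := fun g => ρ g
  have hcomm : ∀ i j, Commute (f i) (f j) := fun i j =>
    (show Commute (i : Y) j from hNc i i.2 j j.2).map ρ
  let sm : Y → (N → k) → (N → k) := fun g χ n => χ ⟨g⁻¹ * n * g, by
    simpa using hNn.conj_mem n n.2 g⁻¹⟩
  have hsm1 : ∀ χ, sm 1 χ = χ := fun χ => funext fun n => congrArg χ (Subtype.ext (by simp))
  have hsmm : ∀ g h χ, sm (g * h) χ = sm g (sm h χ) := fun g h χ =>
    funext fun n => congrArg χ (Subtype.ext (by simp [mul_assoc]))
  have hmove : ∀ g χ x, x ∈ jointEig f χ → ρ g x ∈ jointEig f (sm g χ) := by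
    intro g χ x hx
    rw [mem_jointEig]
    intro n
    have hn := mem_jointEig.mp hx ⟨g⁻¹ * n * g, by simpa using hNn.conj_mem n n.2 g⁻¹⟩
    show ρ n (ρ g x) = sm g χ n • ρ g x
    rw [← Module.End.mul_apply, ← map_mul,
      show (n : Y) * g = g * (g⁻¹ * n * g) by group, map_mul, Module.End.mul_apply]
    rw [show ρ (g⁻¹ * n * g) x = sm g χ n • x from hn, map_smul]
  have hindep := iSupIndep_jointEig f hcomm
  have htop : ⨆ χ, jointEig f χ = ⊤ := by
    refine (hirr.2 _ fun g x hx => ?_).resolve_left fun h => ?_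
    · refine Submodule.iSup_induction (motive := fun y => ρ g y ∈ ⨆ χ, jointEig f χ) _ hx
        (fun χ y hy => Submodule.mem_iSup_of_mem _ (hmove g χ y hy)) (by simp) ?_
      intro y z hy hz
      rw [map_add]
      exact add_mem hy hz
    · obtain ⟨χ, hχ⟩ := exists_common_eigen f hcomm
      exact hχ (eq_bot_iff.mpr ((le_iSup _ χ).trans h.le))
  let ι := {χ : N → k // jointEig f χ ≠ ⊥}
  have : Finite ι := finite_jointEig f hcomm
  have : Fintype ι := Fintype.ofFinite ι
  have hrinj : ∀ (g : Y) x, ρ g x = 0 → x = 0 := fun g x h => by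
    have h' := congrArg (ρ g⁻¹) h
    rwa [map_zero, ← Module.End.mul_apply, ← map_mul, inv_mul_cancel, map_one,
      Module.End.one_apply] at h'
  have hsm_ne : ∀ g χ, jointEig f χ ≠ ⊥ → jointEig f (sm g χ) ≠ ⊥ := by
    intro g χ hχ
    obtain ⟨x, hx, hx0⟩ := (Submodule.ne_bot_iff _).mp hχ
    exact (Submodule.ne_bot_iff _).mpr ⟨_, hmove g χ x hx, fun h => hx0 (hrinj g x h)⟩
  let act : Y →* Equiv.Perm ι :=
    { toFun := fun g =>
        { toFun := fun χ => ⟨sm g χ.1, hsm_ne g _ χ.2⟩
          invFun := fun χ => ⟨sm g⁻¹ χ.1, hsm_ne g⁻¹ _ χ.2⟩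
          left_inv := fun χ => Subtype.ext (by simp [← hsmm, hsm1])
          right_inv := fun χ => Subtype.ext (by simp [← hsmm, hsm1]) }
      map_one' := Equiv.ext fun χ => Subtype.ext (hsm1 χ.1)
      map_mul' := fun g h => Equiv.ext fun χ => Subtype.ext (hsmm g h χ.1) }
  obtain ⟨χ1, hχ1⟩ := exists_common_eigen f hcomm
  -- the blocks are permuted transitively
  have htrans : ∀ χ : ι, ∃ g : Y, sm g χ1 = χ.1 := by
    intro χ
    by_contra! hc
    let T : Submodule k V := ⨆ g : Y, jointEig f (sm g χ1)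
    have hT : T = ⊤ := by
      refine (hirr.2 T fun g x hx => ?_).resolve_left fun h => hχ1 ?_
      · refine Submodule.iSup_induction (motive := fun y => ρ g y ∈ T) _ hx
          (fun h y hy => Submodule.mem_iSup_of_mem (g * h) (hsmm g h χ1 ▸ hmove g _ y hy))
          (by simp) ?_
        intro y z hy hz
        rw [map_add]
        exact add_mem hy hz
      · rw [eq_bot_iff]
        refine le_trans ?_ h.le
        exact le_trans (congrArg (jointEig f) (hsm1 χ1)).ge (le_iSup (fun g : Y => jointEig f (sm g χ1)) 1)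
    have hle : T ≤ ⨆ (j : N → k) (_ : j ≠ χ.1), jointEig f j :=
      iSup_le fun g => le_iSup₂_of_le (sm g χ1) (hc g) le_rfl
    exact χ.2 ((hindep χ.1).eq_bot_of_le (le_top.trans (hT.ge.trans hle)))
  set b := finrank k (jointEig f χ1) with hbdef
  have hmap : ∀ g χ, finrank k (jointEig f χ) ≤ finrank k (jointEig f (sm g χ)) := fun g χ =>
    LinearMap.finrank_le_finrank_of_injective (f := (ρ g).restrict (hmove g χ))
      fun x y e => Subtype.ext (sub_eq_zero.mp (hrinj g _ (by
        rw [map_sub, sub_eq_zero]; exact congrArg Subtype.val e)))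
  have hdim : ∀ χ : ι, finrank k (jointEig f χ.1) = b := fun χ => by
    obtain ⟨g, hg⟩ := htrans χ
    refine le_antisymm ?_ (hg ▸ hmap g χ1)
    have := hmap g⁻¹ χ.1
    rwa [← hg, ← hsmm, inv_mul_cancel, hsm1, hg] at this
  have hb1 : 1 ≤ b := Submodule.one_le_finrank_iff.mpr hχ1
  have hn : Nat.card ι * b = finrank k V := by
    rw [← sum_finrank_jointEig f hcomm htop, Finset.sum_congr rfl fun χ _ => hdim χ,
      Finset.sum_const, Finset.card_univ, Nat.card_eq_fintype_card, smul_eq_mul]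
  have hlt : b < finrank k V := by
    refine Submodule.finrank_lt fun h => ?_
    obtain ⟨g, hg, hgs⟩ := hns
    refine hgs (χ1 ⟨g, hg⟩) (LinearMap.ext fun x => ?_)
    exact mem_jointEig.mp (h.ge (Submodule.mem_top (x := x))) ⟨g, hg⟩
  have hn2 : 2 ≤ Nat.card ι := by
    by_contra! h
    interval_cases hh : Nat.card ι <;> omega
  have hblock : ∀ χ : ι, ∃ (Q : Type u) (_ : Group Q) (_ : Finite Q) (τ : act.ker →* Q),
      RQ Q (B b) 10 ∧ ∀ g, τ g = 1 → ∀ x ∈ jointEig f χ.1, ρ (g : Y) x = x := by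
    intro χ
    let S : Subgroup Y :=
      { carrier := {g | sm g χ.1 = χ.1}
        one_mem' := hsm1 _
        mul_mem' := fun {a b} ha hb => by
          show sm (a * b) χ.1 = χ.1
          rw [hsmm, hb, ha]
        inv_mem' := fun {a} ha => by
          show sm a⁻¹ χ.1 = χ.1
          conv_lhs => rw [← (show sm a χ.1 = χ.1 from ha), ← hsmm, inv_mul_cancel, hsm1] }
    have hker : act.ker ≤ S := fun g hg =>
      congrArg Subtype.val (Equiv.Perm.ext_iff.mp (MonoidHom.mem_ker.mp hg) χ)
    obtain ⟨Q, i1, i2, τ, h1, h2⟩ := exists_block_bound hIH ρ S (jointEig f χ.1) χ.2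
      ((hdim χ).trans_lt hlt)
      (fun g hg x hx => (hg : sm g χ.1 = χ.1) ▸ hmove g χ.1 x hx)
      (fun W hWE hW0 hW => block_irr (jointEig f) hindep ρ hirr sm hmove χ.1 W hWE hW0
        fun g hg => hW g hg) act.ker hker
    rw [hdim χ] at h1
    exact ⟨Q, i1, i2, τ, h1, h2⟩
  choose Q instG instF τ hRQ hτ using hblock
  have hK : RQ act.ker (∏ _χ : ι, B b) (∏ _χ : ι, 10) := by
    refine RQ.of_family τ (fun g hg => ?_) hRQ
    refine Subtype.ext (hinj ?_)
    rw [OneMemClass.coe_one, map_one]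
    refine LinearMap.ext fun x => ?_
    refine Submodule.iSup_induction (motive := fun y => ρ (g : Y) y = y) _
      (htop.ge (Submodule.mem_top (x := x))) (fun χ y hy => ?_) (map_zero _) ?_
    · by_cases hχ : jointEig f χ = ⊥
      · rw [hχ, Submodule.mem_bot] at hy; rw [hy, map_zero]
      · exact hτ ⟨χ, hχ⟩ g (hg _) y hy
    · intro y z hy hz
      rw [map_add, hy, hz]
  rw [Finset.prod_const, Finset.prod_const, Finset.card_univ, ← Nat.card_eq_fintype_card] at hK
  refine ⟨Nat.card ι, b, act.ker.index, hn2, hb1, hn, ?_, ?_, RQ.of_subgroup act.ker hK⟩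
  · rw [Subgroup.index_ker]
    have : Group.IsSolvable act.range :=
      Group.isSolvable_of_surjective (MonoidHom.rangeRestrict_surjective act)
    exact card_le_three_pow_of_solvable_action act.range.subtype Subtype.val_injective
  · rw [Subgroup.index_ker, ← Nat.card_perm]
    exact Nat.card_le_card_of_injective _ Subtype.val_injective

end CfsgLib.ClassLowerSharp
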