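import Mathlib
import Cfsg.Agent.Lib.ClassLower.Main

/-!
A minimal normal subgroup of rank at least two which is the only one is a whole Sylow subgroup
as soon as it has index `p` in a normal one.
-/

set_option autoImplicit false
set_option linter.style.haveILetI false

namespace CfsgLib.ClassLowerSharp

open Subgroup CfsgLib.ClassLower

universe u

theorem not_normal_extension {G : Type u} [Group G] [Finite G] {p d : ℕ} [hp : Fact p.Prime]
    (V U : Subgroup G) [V.Normal] [U.Normal] (hVU : V ≤ U) (hexp : ∀ v ∈ V, v ^ p = 1)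
    (hcardV : Nat.card V = p ^ d) (hd : 2 ≤ d)
    (huniq : ∀ N : Subgroup G, N.Normal → N ≠ ⊥ → V ≤ N) (hidx : V.relIndex U = p)
    (hcop : ¬ p ∣ U.index) : False := by
  classical
  have hpd : p < p ^ d := by
    calc p = p ^ 1 := (pow_one p).symm
      _ < p ^ d := Nat.pow_lt_pow_right hp.out.one_lt hd
  have hsmall : ∀ N : Subgroup G, N.Normal → Nat.card N ≤ p → N = ⊥ := fun N hN hc => by
    by_contra h
    have := Subgroup.card_le_of_le (huniq N hN h)
    omega
  have hUp : IsPGroup p U := by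
    refine IsPGroup.of_card (n := d + 1) ?_
    rw [← Subgroup.card_mul_index (V.subgroupOf U), Nat.card_congr (subgroupOfEquivOfLe hVU).toEquiv,
      hcardV, show (V.subgroupOf U).index = p from hidx, pow_succ]
  -- the smaller one is central
  have hV1 : V ≠ ⊥ := fun h => by
    rw [h, card_bot] at hcardV
    have := Nat.one_lt_pow (n := d) (by omega) hp.out.one_lt
    omega
  obtain ⟨a, ha, ha1, hac⟩ := exists_centralized (isPGroup_of_pow_eq_one hexp) hV1 hUp
    (fun q _ a ha => Normal.conj_mem inferInstance a ha q)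
  have hW := huniq (V ⊓ centralizer (U : Set G)) inferInstance fun h =>
    ha1 (mem_bot.mp (h.le ⟨ha, mem_centralizer_iff.mpr hac⟩))
  have hcentral : ∀ v ∈ V, ∀ y ∈ U, y * v = v * y := fun v hv y hy =>
    mem_centralizer_iff.mp (hW hv).2 y hy
  obtain ⟨x, hxU, hxV⟩ : ∃ x ∈ U, x ∉ V := by
    by_contra! h
    have : V.relIndex U = 1 := relIndex_eq_one.mpr h
    have := hp.out.one_lt
    omega
  have hgen : ∀ y ∈ U, ∃ i : ℤ, x ^ (-i) * y ∈ V := by
    intro y hy
    have hcard : Nat.card (U ⧸ V.subgroupOf U) = p := hidx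
    have hx1 : (QuotientGroup.mk ⟨x, hxU⟩ : U ⧸ V.subgroupOf U) ≠ 1 := fun h =>
      hxV (mem_subgroupOf.mp ((QuotientGroup.eq_one_iff _).mp h))
    obtain ⟨i, hi⟩ := mem_zpowers_iff.mp
      (mem_zpowers_of_prime_card (G := U ⧸ V.subgroupOf U) hcard hx1
        (g' := (QuotientGroup.mk ⟨y, hy⟩ : U ⧸ V.subgroupOf U)))
    refine ⟨i, ?_⟩
    rw [← QuotientGroup.mk_zpow, QuotientGroup.eq, mem_subgroupOf] at hi
    push_cast at hi
    rw [zpow_neg]
    exact hi
  have hab : ∀ y ∈ U, ∀ z ∈ U, y * z = z * y := by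
    intro y hy z hz
    obtain ⟨i, hi⟩ := hgen y hy
    obtain ⟨j, hj⟩ := hgen z hz
    obtain ⟨v, hv, rfl⟩ : ∃ v ∈ V, y = x ^ i * v := ⟨_, hi, by group⟩
    obtain ⟨w, hw, rfl⟩ : ∃ w ∈ V, z = x ^ j * w := ⟨_, hj, by group⟩
    have c1 : ∀ n : ℤ, Commute (x ^ n) v := fun n => hcentral v hv _ (zpow_mem hxU n)
    have c2 : ∀ n : ℤ, Commute (x ^ n) w := fun n => hcentral w hw _ (zpow_mem hxU n)
    have c3 : Commute v w := hcentral w hw v (hVU hv)
    exact (((Commute.refl x).zpow_zpow i j).mul_right (c2 i)).mul_left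
      ((c1 j).symm.mul_right c3) |>.eq
  have hxpV : x ^ p ∈ V := by
    have h : (QuotientGroup.mk ⟨x, hxU⟩ : U ⧸ V.subgroupOf U) ^ p = 1 := by
      rw [← hidx]; exact pow_card_eq_one'
    rw [← QuotientGroup.mk_pow, QuotientGroup.eq_one_iff, mem_subgroupOf] at h
    simpa using h
  have hxp : x ^ p = 1 := by
    have hn : (zpowers (x ^ p)).Normal := by
      refine ⟨fun b hb g => ?_⟩
      obtain ⟨j, rfl⟩ := mem_zpowers_iff.mp hb
      obtain ⟨i, hi⟩ := hgen _ (Normal.conj_mem inferInstance x hxU g)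
      obtain ⟨v, hv, hxe⟩ : ∃ v ∈ V, g * x * g⁻¹ = x ^ i * v := ⟨_, hi, by group⟩
      rw [← conj_zpow, ← conj_pow, hxe,
        (show Commute (x ^ i) v from hcentral v hv _ (zpow_mem hxU i)).mul_pow, hexp v hv, mul_one]
      have e : (x ^ i) ^ p = (x ^ p) ^ i := by
        rw [← zpow_natCast (x ^ i) p, ← zpow_natCast x p, ← zpow_mul, ← zpow_mul, mul_comm]
      rw [e]
      exact zpow_mem (zpow_mem (mem_zpowers (x ^ p)) i) j
    have hle : Nat.card (zpowers (x ^ p)) ≤ p := by
      rw [Nat.card_zpowers]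
      exact Nat.le_of_dvd hp.out.pos (orderOf_dvd_of_pow_eq_one (hexp _ hxpV))
    exact mem_bot.mp ((hsmall _ hn hle).le (mem_zpowers _))
  have hxd : ∀ n : ℤ, x ^ n ∈ V → x ^ n = 1 := by
    intro n hn
    by_cases hdiv : (p : ℤ) ∣ n
    · obtain ⟨t, rfl⟩ := hdiv
      rw [zpow_mul, zpow_natCast, hxp, one_zpow]
    · obtain ⟨s, t, hst⟩ : IsCoprime n (p : ℤ) :=
        ((Nat.prime_iff_prime_int.mp hp.out).coprime_iff_not_dvd.mpr hdiv).symm
      refine absurd ?_ hxV
      have : x = (x ^ n) ^ s * (x ^ p) ^ t := by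
        rw [← zpow_natCast x p, ← zpow_mul, ← zpow_mul, ← zpow_add, mul_comm n s,
          mul_comm (p : ℤ) t, hst, zpow_one]
      rw [this, hxp, one_zpow, mul_one]
      exact zpow_mem hn s
  -- averaging over the quotient
  letI : CommGroup U :=
    { (inferInstance : Group U) with mul_comm := fun a b => Subtype.ext (hab _ a.2 _ b.2) }
  have : Fintype (G ⧸ U) := Fintype.ofFinite _
  have hpull : ∀ q : G ⧸ U, ∃ j : ℤ, x⁻¹ * (q.out * x ^ j * q.out⁻¹) ∈ V := by
    intro q
    obtain ⟨j, hj⟩ := hgen _ (Normal.conj_mem (inferInstance : U.Normal) x hxU q.out⁻¹)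
    refine ⟨j, ?_⟩
    have h2 := inv_mem (Normal.conj_mem (inferInstance : V.Normal) _ hj q.out)
    convert h2 using 1
    group
  choose jf hjf using hpull
  have hmem : ∀ q : G ⧸ U, q.out * x ^ jf q * q.out⁻¹ ∈ U := fun q =>
    Normal.conj_mem inferInstance _ (zpow_mem hxU _) _
  let a : G ⧸ U → U := fun q => ⟨_, hmem q⟩
  set w : U := ∏ q, a q with hw
  let X : U := ⟨x, hxU⟩
  have hwx : (((X ^ Nat.card (G ⧸ U))⁻¹ * w : U) : G) ∈ V := by
    have h : ∏ q, (X⁻¹ * a q) ∈ V.subgroupOf U := prod_mem fun q _ => by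
      rw [mem_subgroupOf]; exact hjf q
    rw [Finset.prod_mul_distrib, Finset.prod_const, Finset.card_univ, ← Nat.card_eq_fintype_card,
      inv_pow, ← hw, mem_subgroupOf] at h
    exact h
  have hwV : (w : G) ∉ V := by
    intro h
    have h1 := mul_mem h (inv_mem hwx)
    have e : ((w : U) : G) * ((((X ^ Nat.card (G ⧸ U))⁻¹ * w : U) : G))⁻¹ =
        x ^ Nat.card (G ⧸ U) := by
      push_cast
      rw [show ((X : U) : G) = x from rfl]
      group
    rw [e, ← zpow_natCast] at h1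
    have h2 := hxd _ h1
    rw [zpow_natCast, ← orderOf_dvd_iff_pow_eq_one,
      orderOf_eq_prime hxp (fun h0 => hxV (h0 ▸ one_mem V))] at h2
    exact hcop h2
  have hwn : (zpowers (w : G)).Normal := by
    refine ⟨fun b hb h => ?_⟩
    obtain ⟨n, rfl⟩ := mem_zpowers_iff.mp hb
    obtain ⟨i, hi⟩ := hgen _ (Normal.conj_mem (inferInstance : U.Normal) x hxU h)
    rw [← conj_zpow]
    refine zpow_mem ?_ n
    let c : U →* U := (MulAut.conjNormal h : MulAut U).toMonoidHom
    have hc : ∀ y : U, ((c y : U) : G) = h * y * h⁻¹ := fun y => MulAut.conjNormal_apply h y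
    have key : ∀ q : G ⧸ U, c (a q) = (a (h • q)) ^ i := by
      intro q
      refine Subtype.ext ?_
      rw [hc, SubgroupClass.coe_zpow]
      show h * (q.out * x ^ jf q * q.out⁻¹) * h⁻¹ =
        ((h • q).out * x ^ jf (h • q) * (h • q).out⁻¹) ^ i
      obtain ⟨u, hu, hqu⟩ : ∃ u ∈ U, h * q.out = (h • q).out * u := by
        refine ⟨((h • q).out)⁻¹ * (h * q.out), ?_, by rw [mul_inv_cancel_left]⟩
        rw [← QuotientGroup.eq, QuotientGroup.out_eq', ← smul_eq_mul, ← MulAction.Quotient.smul_mk,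
          QuotientGroup.out_eq']
      have e1 : h * (q.out * x ^ jf q * q.out⁻¹) * h⁻¹ =
          (h • q).out * x ^ jf q * (h • q).out⁻¹ := by
        calc h * (q.out * x ^ jf q * q.out⁻¹) * h⁻¹
            = (h * q.out) * x ^ jf q * (h * q.out)⁻¹ := by group
          _ = (h • q).out * (u * x ^ jf q * u⁻¹) * (h • q).out⁻¹ := by rw [hqu]; group
          _ = _ := by rw [hab u hu _ (zpow_mem hxU _), mul_inv_cancel_right]
      rw [e1, conj_zpow]
      -- exponents agree
      have hd1 : x⁻¹ * ((h • q).out * x ^ jf (h • q) * (h • q).out⁻¹) ∈ V := hjf _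
      have hq1 : x⁻¹ * (q.out * x ^ jf q * q.out⁻¹) ∈ V := hjf q
      let mk : G → G ⧸ V := QuotientGroup.mk
      have f1 : ∀ y z : G, mk (y * z) = mk y * mk z := fun _ _ => rfl
      have g1 : mk ((h • q).out * x ^ jf (h • q) * (h • q).out⁻¹) = mk x :=
        (QuotientGroup.eq.mpr hd1).symm
      have g2 : mk (q.out * x ^ jf q * q.out⁻¹) = mk x := (QuotientGroup.eq.mpr hq1).symm
      have g3 : mk (h * x * h⁻¹) = mk (x ^ i) := (QuotientGroup.eq.mpr (by
        rw [← zpow_neg]; exact hi)).symm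
      have g4 : mk ((h • q).out * x ^ jf q * (h • q).out⁻¹) =
          mk ((h • q).out * (x ^ jf (h • q)) ^ i * (h • q).out⁻¹) := by
        rw [← e1, f1, f1, g2, ← f1, ← f1, g3, ← conj_zpow,
          show mk (((h • q).out * x ^ jf (h • q) * (h • q).out⁻¹) ^ i) =
            mk ((h • q).out * x ^ jf (h • q) * (h • q).out⁻¹) ^ i from rfl, g1]
        rfl
      have g5 : (x ^ jf q)⁻¹ * (x ^ jf (h • q)) ^ i ∈ V := by
        have := Normal.conj_mem (inferInstance : V.Normal) _ (QuotientGroup.eq.mp g4)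
          ((h • q).out)⁻¹
        convert this using 1
        group
      rw [← zpow_mul, ← zpow_neg, ← zpow_add] at g5
      have g6 := hxd _ g5
      rw [zpow_add, zpow_neg, inv_mul_eq_one, zpow_mul] at g6
      rw [g6]
    have hcw : c w = w ^ i := by
      rw [hw, map_prod, Finset.prod_congr rfl fun q _ => key q, Finset.prod_zpow]
      congr 1
      exact Fintype.prod_equiv (MulAction.toPerm h) _ _ fun q => rfl
    have hcoe := congrArg Subtype.val hcw
    rw [hc, SubgroupClass.coe_zpow] at hcoe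
    rw [hcoe]
    exact zpow_mem (mem_zpowers _) i
  have hwp : (w : G) ^ p = 1 := by
    obtain ⟨i, hi⟩ := hgen _ w.2
    obtain ⟨v, hv, hwe⟩ : ∃ v ∈ V, (w : G) = x ^ i * v := ⟨_, hi, by group⟩
    rw [hwe, (show Commute (x ^ i) v from hcentral v hv _ (zpow_mem hxU i)).mul_pow, hexp v hv, mul_one,
      ← zpow_natCast (x ^ i), ← zpow_mul, mul_comm, zpow_mul, zpow_natCast, hxp, one_zpow]
  have hle : Nat.card (zpowers (w : G)) ≤ p := by
    rw [Nat.card_zpowers]
    exact Nat.le_of_dvd hp.out.pos (orderOf_dvd_of_pow_eq_one hwp)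
  exact hwV (by rw [mem_bot.mp ((hsmall _ hwn hle).le (mem_zpowers _))]; exact one_mem V)

end CfsgLib.ClassLowerSharp
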