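import Mathlib
import Cfsg.Agent.Lib.ClassLower.Linear
import Cfsg.Agent.Lib.ClassLowerSharp.DegSmall
import Cfsg.Agent.Lib.ClassLowerSharp.Blocks

/-!
The ratio bound in every dimension over an algebraically closed field.
-/

set_option autoImplicit false
set_option linter.style.haveILetI false
set_option linter.unusedSectionVars false

namespace CfsgLib.ClassLowerSharp

open Module Cfsg CfsgLib.ClassLower

universe u v w

variable {k : Type w} [Field k]

/-- A scalar representation which is irreducible has degree one. -/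
theorem finrank_eq_one_of_scalar {Y : Type u} [Group Y] {V : Type v} [AddCommGroup V] [Module k V]
    [FiniteDimensional k V] (ρ : Y →* Module.End k V) (hirr : IsIrr ρ)
    (h : ∀ g, ∃ c : k, ρ g = c • 1) : finrank k V = 1 := by
  have := hirr.1
  obtain ⟨x, hx⟩ := exists_ne (0 : V)
  have h1 := (hirr.2 (k ∙ x) fun g y hy => by
    obtain ⟨c, hc⟩ := h g
    rw [hc]
    exact Submodule.smul_mem _ c hy).resolve_left (by simpa using hx)
  rw [← finrank_top k V, ← h1, finrank_span_singleton hx]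

/-- The cases of a primitive group. -/
theorem prim_bound {Y : Type u} [Group Y] [Finite Y] {V : Type v} [AddCommGroup V] [Module k V]
    [FiniteDimensional k V] {ρ : Y →* Module.End k V} (hρ : IsPrim ρ) {p : ℕ} (hp : 11 ≤ p)
    (h13 : 13 ≤ p ∨ finrank k V ≤ 6) : RQ Y (bnd p (finrank k V)) 10 := by
  have := hρ.nt
  have hd1 : 1 ≤ finrank k V := Module.finrank_pos
  obtain ⟨d, hd⟩ : ∃ d, finrank k V = d := ⟨_, rfl⟩
  rw [hd] at hd1 h13 ⊢
  rcases Nat.lt_or_ge d 5 with h5 | h5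
  · interval_cases d
    · obtain ⟨s, hs, hs1, hs2, -⟩ := hρ.relIndex_facts
      rw [hd] at hs2
      obtain rfl : s = 1 := by omega
      have hqb := hρ.index_le_qb_value hs
      rw [qb, if_pos (by norm_num)] at hqb
      exact hρ.rq_index.le one_pos (by simp [bnd]; omega)
    · rw [show bnd p 2 = 60 by simp [bnd]]
      rcases hρ.deg_two hd with h | ⟨h24, h4⟩
      · exact h.le (by norm_num) (by norm_num)
      · exact (hρ.rq_of_count (L := 1) (W := 4) (by omega)).le (by norm_num) (by omega)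
    · rw [show bnd p 3 = 59 * p by simp [bnd]]
      exact hρ.deg_three hd hp
    · rw [show bnd p 4 = 59 * p ^ 2 by simp [bnd]]
      exact hρ.deg_four hd hp
  by_cases h8 : d = 8
  · subst h8
    rw [show bnd p 8 = 110 * p ^ 6 by simp [bnd]]
    have h13' : 13 ≤ p := h13.resolve_right (by norm_num)
    have hp6 : 13 ^ 6 ≤ p ^ 6 := Nat.pow_le_pow_left h13' 6
    rcases hρ.deg_eight hd hp with h | ⟨hidx, -, h23, -⟩
    · exact h.le (by norm_num) (by omega)
    · exact (hρ.rq_of_count h23).le (by norm_num) (by omega)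
  · rw [show bnd p d = 59 * p ^ (d - 2) by
      rw [bnd, if_neg (by omega), if_neg (by omega), if_neg h8]]
    exact hd ▸ hρ.deg_large hp (hd ▸ h5) (hd ▸ h8)

/-- The dichotomy: blocks or primitive. -/
theorem blocks_or_prim [IsAlgClosed k] {Y : Type u} [Group Y] [Finite Y] [Group.IsSolvable Y]
    {V : Type v} [AddCommGroup V] [Module k V] [FiniteDimensional k V] {p : ℕ} (hp : 11 ≤ p)
    (h13 : 13 ≤ p ∨ finrank k V ≤ 6) (ρ : Y →* Module.End k V) (hinj : Function.Injective ρ)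
    (hirr : IsIrr ρ) (hIH : Below.{u, v, w} k (bnd p) (finrank k V)) :
    IsPrim ρ ∨ RQ Y (sbnd p (finrank k V)) 10 := by
  classical
  by_cases hns : ∃ N : Subgroup Y, N.Normal ∧ (∀ a ∈ N, ∀ b ∈ N, a * b = b * a) ∧
      ∃ g ∈ N, ∀ c : k, ρ g ≠ c • 1
  · right
    obtain ⟨N, hN1, hN2, hN3⟩ := hns
    obtain ⟨n, b, T, hn, hb, hnb, hT3, hTf, hRQ⟩ := blocks_case ρ hinj hirr hIH N hN1 hN2 hN3
    rw [← hnb] at h13 ⊢
    exact hRQ.le (pow_pos (by norm_num) _) (blocks_bound hp hn hb h13 hT3 hTf)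
  · left
    push Not at hns
    exact ⟨hinj, hirr.1, fun A hA hAc g hg => hns A hA hAc g hg, inferInstance⟩

theorem below_bnd [IsAlgClosed k] {p : ℕ} (hp : 11 ≤ p) (d : ℕ) (h13 : 13 ≤ p ∨ d ≤ 7) :
    Below.{u, v, w} k (bnd p) d := by
  induction d with
  | zero => exact fun Y _ _ _ V _ _ _ ρ _ _ h => absurd h (Nat.not_lt_zero _)
  | succ d IH =>
    intro Y _ _ _ V _ _ _ ρ hinj hirr hd
    have IH' := IH (h13.imp_right fun h => by omega)
    rcases Nat.lt_or_ge (finrank k V) d with h | h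
    · exact IH' Y V ρ hinj hirr h
    have h13' : 13 ≤ p ∨ finrank k V ≤ 6 := h13.imp_right fun h => by omega
    rcases blocks_or_prim hp h13' ρ hinj hirr (show finrank k V = d by omega ▸ IH') with hρ | hs
    · exact prim_bound hρ hp h13'
    · exact hs.le (by norm_num) (Nat.mul_le_mul_left _ (sbnd_le_bnd p _) |>.trans (le_of_eq (mul_comm _ _)))

theorem rq_of_lt [IsAlgClosed k] {p : ℕ} (hp : 11 ≤ p) {Y : Type u} [Group Y] [Finite Y]
    [Group.IsSolvable Y] {V : Type v} [AddCommGroup V] [Module k V] [FiniteDimensional k V]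
    (h13 : 13 ≤ p ∨ finrank k V ≤ 6) (ρ : Y →* Module.End k V) (hinj : Function.Injective ρ)
    (hirr : IsIrr ρ) : RQ Y (bnd p (finrank k V)) 10 :=
  below_bnd.{u, v, w} hp (finrank k V + 1) (h13.imp_right fun h => by omega) Y V ρ hinj hirr
    (Nat.lt_succ_self _)

theorem quot_pair_bound {Y : Type u} [Group Y] [Finite Y] {p a b : ℕ} (hp : 11 ≤ p)
    (ha : 1 ≤ a) (hb : 1 ≤ b) {U1 U2 : Subgroup Y} [U1.Normal] [U2.Normal]
    (h1 : RQ (Y ⧸ U1) (bnd p a) 10) (h2 : RQ (Y ⧸ U2) (bnd p b) 10) :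
    RQ (Y ⧸ U1 ⊓ U2) (sbnd p (a + b)) 10 := by
  refine (RQ.of_injective ((QuotientGroup.map (U1 ⊓ U2) U1 (MonoidHom.id Y)
    (fun _ h => h.1)).prod (QuotientGroup.map (U1 ⊓ U2) U2 (MonoidHom.id Y) (fun _ h => h.2)))
    ?_ (h1.prod h2)).le (by norm_num) ?_
  · rw [injective_iff_map_eq_one]
    intro q hq
    induction q using QuotientGroup.induction_on with | _ g =>
    exact (QuotientGroup.eq_one_iff _).mpr ⟨(QuotientGroup.eq_one_iff _).mp (congrArg Prod.fst hq),
      (QuotientGroup.eq_one_iff _).mp (congrArg Prod.snd hq)⟩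
  · have := add_bound hp ha hb
    omega

/-- A reducible representation, up to a unipotent kernel. -/
theorem reducible_step (r : ℕ) [Fact r.Prime] [CharP k r] {Y : Type u} [Group Y] [Finite Y]
    {V : Type v} [AddCommGroup V] [Module k V] [FiniteDimensional k V] {p : ℕ} (hp : 11 ≤ p)
    (ρ : Y →* Module.End k V) (W : Submodule k V) (hWinv : ∀ g, ∀ x ∈ W, ρ g x ∈ W)
    (hW0 : W ≠ ⊥) (hW1 : W ≠ ⊤)
    (IH : ∀ (V' : Type v) [AddCommGroup V'] [Module k V'] [FiniteDimensional k V']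
      (σ : Y →* Module.End k V'), finrank k V' < finrank k V → 1 ≤ finrank k V' →
      ∃ U : Subgroup Y, ∃ _ : U.Normal, (∀ g ∈ U, ∃ a, σ g ^ r ^ a = 1) ∧
        RQ (Y ⧸ U) (bnd p (finrank k V')) 10) :
    ∃ U : Subgroup Y, ∃ _ : U.Normal, (∀ g ∈ U, ∃ a, ρ g ^ r ^ a = 1) ∧
      RQ (Y ⧸ U) (sbnd p (finrank k V)) 10 := by
  let ρ1 : Y →* Module.End k W :=
    { toFun := fun g => (ρ g).restrict (hWinv g)
      map_one' := LinearMap.ext fun x => Subtype.ext (by simp)
      map_mul' := fun g h => LinearMap.ext fun x => Subtype.ext (by simp) }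
  let ρ2 : Y →* Module.End k (V ⧸ W) :=
    { toFun := fun g => W.mapQ W (ρ g) (hWinv g)
      map_one' := Submodule.linearMap_qext _ (LinearMap.ext fun x => by simp)
      map_mul' := fun g h => Submodule.linearMap_qext _ (LinearMap.ext fun x => by simp) }
  have hsum := W.finrank_quotient_add_finrank
  have hWpos : 1 ≤ finrank k W := Submodule.one_le_finrank_iff.mpr hW0
  have hQpos : 1 ≤ finrank k (V ⧸ W) := by
    have := Submodule.finrank_lt hW1
    omega
  obtain ⟨U1, hU1n, hU1, hB1⟩ := IH W ρ1 (by omega) hWpos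
  obtain ⟨U2, hU2n, hU2, hB2⟩ := IH (V ⧸ W) ρ2 (by omega) hQpos
  have : Nontrivial V := Module.nontrivial_of_finrank_pos (R := k) (by omega)
  have : CharP (Module.End k V) r :=
    charP_of_injective_algebraMap (algebraMap k (Module.End k V)).injective r
  refine ⟨U1 ⊓ U2, inferInstance, fun g hg => ?_, ?_⟩
  · obtain ⟨a, ha⟩ := hU1 g hg.1
    obtain ⟨b, hb⟩ := hU2 g hg.2
    have ha' : ρ1 (g ^ r ^ (a + b)) = 1 := by
      rw [map_pow, pow_add, pow_mul, ha, one_pow]
    have hb' : ρ2 (g ^ r ^ (a + b)) = 1 := by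
      rw [map_pow, pow_add, mul_comm, pow_mul, hb, one_pow]
    refine ⟨a + b + 1, ?_⟩
    rw [pow_succ, pow_mul, ← map_pow]
    refine unipotent_of_two_steps r (LinearMap.ext fun x => ?_)
    have h2 : ρ (g ^ r ^ (a + b)) x - x ∈ W := by
      rw [← Submodule.Quotient.eq]
      exact LinearMap.congr_fun hb' (Submodule.Quotient.mk x)
    have h1 : ρ (g ^ r ^ (a + b)) (ρ (g ^ r ^ (a + b)) x - x) = ρ (g ^ r ^ (a + b)) x - x :=
      congrArg Subtype.val (LinearMap.congr_fun ha' ⟨_, h2⟩)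
    rw [Module.End.mul_apply, LinearMap.sub_apply, LinearMap.sub_apply, Module.End.one_apply,
      Module.End.one_apply, h1, sub_self, LinearMap.zero_apply]
  · rw [← hsum, add_comm]
    exact quot_pair_bound hp hWpos hQpos hB1 hB2

theorem aux_bound [IsAlgClosed k] (r : ℕ) [Fact r.Prime] [CharP k r] {p : ℕ} (hp : 11 ≤ p)
    (d : ℕ) : ∀ (Y : Type u) [Group Y] [Finite Y] [Group.IsSolvable Y] (V : Type v)
    [AddCommGroup V] [Module k V] [FiniteDimensional k V] (ρ : Y →* Module.End k V),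
    finrank k V = d → 1 ≤ d → (13 ≤ p ∨ d ≤ 6) →
    ∃ U : Subgroup Y, ∃ _ : U.Normal, (∀ g ∈ U, ∃ a, ρ g ^ r ^ a = 1) ∧
      RQ (Y ⧸ U) (bnd p d) 10 := by
  induction d using Nat.strong_induction_on with
  | _ d IH =>
  intro Y _ _ _ V _ _ _ ρ hd hd1 h13
  have : Nontrivial V := Module.nontrivial_of_finrank_pos (R := k) (by omega)
  by_cases hirr : IsIrr ρ
  · refine ⟨ρ.ker, inferInstance, fun g hg => ⟨0, by rw [MonoidHom.mem_ker.mp hg, one_pow]⟩, ?_⟩
    obtain ⟨σ, hσ, hinj⟩ : ∃ σ : Y ⧸ ρ.ker →* Module.End k V,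
        (∀ g : Y, σ (QuotientGroup.mk g) = ρ g) ∧ Function.Injective σ := by
      refine ⟨QuotientGroup.lift ρ.ker ρ le_rfl, fun g => rfl, ?_⟩
      rw [injective_iff_map_eq_one]
      intro q hq
      induction q using QuotientGroup.induction_on with | _ g =>
      exact (QuotientGroup.eq_one_iff _).mpr (MonoidHom.mem_ker.mpr hq)
    exact hd ▸ rq_of_lt hp (hd ▸ h13) σ hinj ⟨hirr.1, fun W hW => hirr.2 W fun g x hx => by
      rw [← hσ]; exact hW _ x hx⟩
  · obtain ⟨W, hWinv, hW0, hW1⟩ : ∃ W : Submodule k V, (∀ g, ∀ x ∈ W, ρ g x ∈ W) ∧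
        W ≠ ⊥ ∧ W ≠ ⊤ := by
      unfold IsIrr at hirr
      push Not at hirr
      exact hirr inferInstance
    obtain ⟨U, hUn, hU, hB⟩ := reducible_step r hp ρ W hWinv hW0 hW1
      fun V' _ _ _ σ hlt h1 => IH _ (hd ▸ hlt) Y V' σ rfl h1 (h13.imp_right fun h => by omega)
    rw [hd] at hB
    exact ⟨U, hUn, hU, hB.le (by norm_num) (by have := sbnd_le_bnd p d; omega)⟩

/-- The trichotomy at the top: the strong bound, or primitive. -/
theorem strong_or_prim [IsAlgClosed k] (r : ℕ) [Fact r.Prime] [CharP k r] {p : ℕ} (hp : 11 ≤ p)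
    {Y : Type u} [Group Y] [Finite Y] [Group.IsSolvable Y] {V : Type v} [AddCommGroup V]
    [Module k V] [FiniteDimensional k V] (h13 : 13 ≤ p ∨ finrank k V ≤ 6)
    (hd : 1 ≤ finrank k V) (ρ : Y →* Module.End k V) (hinj : Function.Injective ρ)
    (hcore : ∀ U : Subgroup Y, U.Normal → IsPGroup r U → U = ⊥) :
    IsPrim ρ ∨ RQ Y (sbnd p (finrank k V)) 10 := by
  have : Nontrivial V := Module.nontrivial_of_finrank_pos (R := k) (by omega)
  by_cases hirr : IsIrr ρ
  · exact blocks_or_prim hp h13 ρ hinj hirr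
      (below_bnd.{u, v, w} hp _ (h13.imp_right fun h => by omega))
  right
  obtain ⟨W, hWinv, hW0, hW1⟩ : ∃ W : Submodule k V, (∀ g, ∀ x ∈ W, ρ g x ∈ W) ∧
      W ≠ ⊥ ∧ W ≠ ⊤ := by
    unfold IsIrr at hirr
    push Not at hirr
    exact hirr inferInstance
  obtain ⟨U, hUn, hU, hB⟩ := reducible_step r hp ρ W hWinv hW0 hW1
    fun V' _ _ _ σ hlt h1 => aux_bound r hp _ Y V' σ rfl h1 (h13.imp_right fun h => by omega)
  have hU0 : U = ⊥ := hcore U hUn fun g => by
    obtain ⟨a, ha⟩ := hU g g.2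
    exact ⟨a, Subtype.ext (hinj (by push_cast; rw [map_pow, map_one, ha]))⟩
  subst hU0
  exact hB.congr QuotientGroup.quotientBot

end CfsgLib.ClassLowerSharp
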