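import Mathlib
import Cfsg.Agent.S3360
import Cfsg.Agent.Lib.ClassLowerSharp.Quot

/-!
A transitive solvable linear group is semilinear, so has many classes.
-/

set_option autoImplicit false
set_option linter.style.haveILetI false

namespace CfsgLib.ClassLowerSharp

open Subgroup

universe u

/-- A finite field of order `p ^ d` has at most `d` automorphisms. -/
theorem card_ringAut_le {p d : ℕ} [Fact p.Prime] {F : Type} [Field F] [Finite F]
    (hp : ∀ x : F, p • x = 0) (hF : Nat.card F = p ^ d) : Nat.card (F ≃+* F) ≤ d := by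
  have hp1 : ((p : F)) = 0 := by simpa [nsmul_eq_mul] using hp 1
  have : CharP F p := by
    obtain ⟨c, hc⟩ := CharP.exists F
    rcases (Nat.dvd_prime (Fact.out : p.Prime)).mp ((CharP.cast_eq_zero_iff F c p).mp hp1) with h | h
    · exact absurd h (CharP.char_ne_one F c)
    · exact h ▸ hc
  let _ : Algebra (ZMod p) F := ZMod.algebra F p
  have : Module.Finite (ZMod p) F := Module.Finite.of_finite
  have hfin : Module.finrank (ZMod p) F = d := by
    rw [Module.natCard_eq_pow_finrank (K := ZMod p) (V := F), Nat.card_zmod] at hF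
    exact Nat.pow_right_injective (Fact.out : p.Prime).two_le hF
  have h : Nat.card (F ≃ₐ[ZMod p] F) ≤ Module.finrank (ZMod p) F := by
    rw [Nat.card_eq_fintype_card]
    exact AlgEquiv.card_le (F := ZMod p) (K := F)
  refine le_trans ?_ (hfin ▸ h)
  refine Nat.card_le_card_of_injective (fun σ => AlgEquiv.ofRingEquiv (f := σ) fun x => ?_)
    fun σ τ h => RingEquiv.ext fun x => AlgEquiv.congr_fun h x
  exact RingHom.congr_fun (Subsingleton.elim (σ.toRingHom.comp (algebraMap (ZMod p) F))
    (algebraMap (ZMod p) F)) x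

/-- A solvable group inducing a transitive group on an elementary abelian normal subgroup, of
order none of the six exceptional ones, has a quotient of order at most `d ^ 2` times its class
number. -/
theorem card_quot_le_of_transitive {G : Type u} [Group G] [Finite G] [Group.IsSolvable G] {p d : ℕ}
    [Fact p.Prime] (V : Subgroup G) [V.Normal] (hexp : ∀ v ∈ V, v ^ p = 1)
    (hcent : centralizer (V : Set G) = V) (hd : Nat.card V = p ^ d) (hd1 : 1 ≤ d)
    (htr : ∀ x ∈ V, ∀ y ∈ V, x ≠ 1 → y ≠ 1 → IsConj x y)
    (hex : Nat.card V ∉ ({9, 25, 49, 121, 529, 81} : Set ℕ)) :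
    Nat.card (G ⧸ V) ≤ d * d * Nat.card (ConjClasses (G ⧸ V)) := by
  classical
  letI : CommGroup V :=
    { (inferInstance : Group V) with
      mul_comm := fun a b => Subtype.ext
        ((mem_centralizer_iff.mp (hcent.ge b.2)) a a.2) }
  have : Module (ZMod p) (Additive V) := AddCommGroup.zmodModule fun w => by
    show Additive.ofMul (w.toMul ^ p) = 0
    rw [show w.toMul ^ p = 1 from Subtype.ext (hexp _ w.toMul.2)]
    rfl
  have : Nontrivial (Additive V) := by
    show Nontrivial V
    rw [← Finite.one_lt_card_iff_nontrivial, hd]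
    exact Nat.one_lt_pow (by omega) (Fact.out : p.Prime).one_lt
  let lin : G → (Additive V →ₗ[ZMod p] Additive V) := fun g =>
    (MonoidHom.toAdditive (MulAut.conjNormal g : MulAut V).toMonoidHom).toZModLinearMap p
  have hlin : ∀ g a, (lin g a).toMul = (MulAut.conjNormal g : MulAut V) a.toMul := fun g a => rfl
  have hbij : ∀ g, Function.Bijective (lin g) := fun g => (MulAut.conjNormal g : MulAut V).bijective
  let ρ0 : G →* (Additive V ≃ₗ[ZMod p] Additive V) :=
    { toFun := fun g => LinearEquiv.ofBijective (lin g) (hbij g)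
      map_one' := LinearEquiv.ext fun a => by
        show lin 1 a = a
        exact Additive.toMul.injective (by rw [hlin, map_one]; rfl)
      map_mul' := fun g h => LinearEquiv.ext fun a => by
        show lin (g * h) a = lin g (lin h a)
        exact Additive.toMul.injective (by rw [hlin, hlin, hlin, map_mul]; rfl) }
  have hρ0 : ∀ g (v : V), ((ρ0 g (Additive.ofMul v)).toMul : G) = g * v * g⁻¹ := fun g v =>
    MulAut.conjNormal_apply g v
  have hker : ∀ g, ρ0 g = 1 ↔ g ∈ V := fun g => by
    refine ⟨fun h => hcent.le (mem_centralizer_iff.mpr fun v hv => ?_), fun h => ?_⟩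
    · have h1 := hρ0 g ⟨v, hv⟩
      rw [h] at h1
      exact (mul_inv_eq_iff_eq_mul.mp (h1.symm.trans rfl)).symm
    · refine LinearEquiv.ext fun a => Additive.toMul.injective (Subtype.ext ?_)
      have h1 := hρ0 g a.toMul
      rw [← mem_centralizer_iff.mp (hcent.ge h) _ a.toMul.2, mul_inv_cancel_right] at h1
      exact h1
  let ρ : G ⧸ V →* (Additive V ≃ₗ[ZMod p] Additive V) :=
    QuotientGroup.lift V ρ0 fun g hg => (hker g).mpr hg
  have hρ : Function.Injective ρ := by
    rw [injective_iff_map_eq_one]
    intro q hq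
    obtain ⟨g, rfl⟩ := QuotientGroup.mk_surjective q
    exact (QuotientGroup.eq_one_iff g).mpr ((hker g).mp hq)
  have htrans : ∀ v w : Additive V, v ≠ 0 → w ≠ 0 → ∃ q : G ⧸ V, ρ q v = w := by
    intro v w hv hw
    obtain ⟨c, hc⟩ := isConj_iff.mp (htr _ v.toMul.2 _ w.toMul.2
      (fun h => hv (Additive.toMul.injective (Subtype.ext h)))
      (fun h => hw (Additive.toMul.injective (Subtype.ext h))))
    exact ⟨(c : G ⧸ V), Additive.toMul.injective (Subtype.ext ((hρ0 c v.toMul).trans hc))⟩
  rcases Cfsg.Agent.S3360.result p (V := Additive V) (G := G ⧸ V) inferInstance ρ hρ htrans with h | h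
  swap
  · exact absurd h hex
  · obtain ⟨F, _, _, e, he⟩ := h
    have hFp : ∀ x : F, p • x = 0 := fun x => by
      obtain ⟨v, rfl⟩ := e.surjective x
      have h0 : p • v = 0 := by
        show Additive.ofMul (v.toMul ^ p) = 0
        rw [show v.toMul ^ p = 1 from Subtype.ext (hexp _ v.toMul.2)]
        rfl
      rw [← map_nsmul, h0, map_zero]
    have hFc : Nat.card F = p ^ d := by
      rw [← hd]; exact (Nat.card_congr e.toEquiv).symm
    choose a σ hσ using he
    have ha0 : ∀ q, a q ≠ 0 := fun q h0 => by
      obtain ⟨v, hv⟩ := exists_ne (0 : Additive V)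
      refine hv ((ρ q).injective (e.injective ?_))
      rw [hσ, h0, zero_mul, map_zero, map_zero]
    let U : Subgroup (G ⧸ V) :=
      { carrier := {q | ∃ c : F, ∀ v, e (ρ q v) = c * e v}
        one_mem' := ⟨1, fun v => by rw [map_one, one_mul]; rfl⟩
        mul_mem' := fun {q r} ⟨c, hc⟩ ⟨c', hc'⟩ => ⟨c * c', fun v => by
          rw [map_mul, LinearEquiv.mul_apply, hc, hc', mul_assoc]⟩
        inv_mem' := fun {q} ⟨c, hc⟩ => ⟨c⁻¹, fun v => by
          have hc0 : c ≠ 0 := fun h0 => by
            obtain ⟨w, hw⟩ := exists_ne (0 : Additive V)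
            refine hw ((ρ q).injective (e.injective ?_))
            rw [hc, h0, zero_mul, map_zero, map_zero]
          have h := hc (ρ q⁻¹ v)
          rw [← LinearEquiv.mul_apply, ← map_mul, mul_inv_cancel, map_one] at h
          change e v = c * e (ρ q⁻¹ v) at h
          rw [h, inv_mul_cancel_left₀ hc0]⟩ }
    have hUc : ∀ q ∈ U, ∀ r ∈ U, q * r = r * q := by
      rintro q ⟨c, hc⟩ r ⟨c', hc'⟩
      refine hρ (LinearEquiv.ext fun v => e.injective ?_)
      rw [map_mul, map_mul, LinearEquiv.mul_apply, LinearEquiv.mul_apply, hc, hc', hc', hc]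
      ring
    have : Finite (F ≃+* F) := Finite.of_injective (fun σ => (σ : F → F)) DFunLike.coe_injective
    have hidx : U.index ≤ d := by
      refine le_trans ?_ (card_ringAut_le hFp hFc)
      refine Nat.card_le_card_of_injective (fun x => σ x.out) fun x y hxy => ?_
      rw [← QuotientGroup.out_eq' x, ← QuotientGroup.out_eq' y, QuotientGroup.eq]
      have hxy' : σ x.out = σ y.out := hxy
      refine ⟨(σ x.out).symm (a y.out / a x.out), fun v => ?_⟩
      have h1 : e (ρ x.out (ρ ((x.out)⁻¹ * y.out) v)) = e (ρ y.out v) := by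
        rw [← LinearEquiv.mul_apply, ← map_mul, mul_inv_cancel_left]
      rw [hσ x.out, hσ y.out, hxy'] at h1
      apply (σ y.out).injective
      apply mul_left_cancel₀ (ha0 x.out)
      rw [h1, map_mul, ← hxy', RingEquiv.apply_symm_apply, hxy', ← mul_assoc,
        mul_div_cancel₀ _ (ha0 x.out)]
    have hU : RQ U 1 1 := by
      unfold RQ
      rw [one_mul, one_mul]
      refine Nat.card_le_card_of_injective (fun x => ConjClasses.mk x) fun x y h => ?_
      obtain ⟨c, hc⟩ := isConj_iff.mp (ConjClasses.mk_eq_mk_iff_isConj.mp h)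
      rw [show c * x = x * c from Subtype.ext (hUc _ c.2 _ x.2), mul_inv_cancel_right] at hc
      exact hc
    have h2 := RQ.of_subgroup U hU
    unfold RQ at h2
    rw [one_mul, mul_one] at h2
    refine h2.trans (Nat.mul_le_mul_right _ ?_)
    rw [pow_two]
    exact Nat.mul_le_mul hidx hidx

end CfsgLib.ClassLowerSharp
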