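import Mathlib
import Cfsg.Agent.Lib.ClassLower.Main
import Cfsg.Agent.Lib.ClassLowerSharp.Recursion
import Cfsg.Agent.Lib.ClassLowerSharp.Transitive

/-!
The configuration with a self-centralizing minimal normal subgroup.
-/

set_option autoImplicit false
set_option linter.style.haveILetI false

namespace CfsgLib.ClassLowerSharp

open Module Cfsg CfsgLib.ClassLower CfsgLib.FittingHeightPrime Subgroup

universe u

/-- From the strong bound to the result. -/
theorem arith_strong {p d k kH o h : ℕ} (hp : 11 ≤ p) (hd : 2 ≤ d)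
    (hR : 10 * h ≤ sbnd p d * kH) (ho : p ^ d - 1 ≤ o * h) (hk : kH + o ≤ k) :
    49 * p ≤ 60 * k := by
  have h4 := sq_ge_four_mul hk
  have h1 : 40 * (p ^ d - 1) ≤ sbnd p d * k ^ 2 :=
    calc 40 * (p ^ d - 1) ≤ 40 * (o * h) := Nat.mul_le_mul_left _ ho
      _ = 4 * o * (10 * h) := by ring
      _ ≤ 4 * o * (sbnd p d * kH) := Nat.mul_le_mul_left _ hR
      _ = sbnd p d * (4 * kH * o) := by ring
      _ ≤ _ := Nat.mul_le_mul_left _ h4
  have h2 : 1 ≤ p ^ d := Nat.one_le_pow _ _ (by omega)
  refine (Nat.pow_le_pow_iff_left (n := 2) (by norm_num)).mp ?_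
  rcases eq_or_lt_of_le hd with rfl | hd3
  · rw [sbnd, if_neg (by norm_num), if_pos rfl] at h1
    have : 121 ≤ p ^ 2 := Nat.pow_le_pow_left hp 2
    rw [mul_pow, mul_pow]
    omega
  · rw [sbnd, if_neg (by omega), if_neg (by omega)] at h1
    obtain ⟨e, rfl⟩ := Nat.exists_eq_add_of_le hd3
    rw [show Nat.succ 2 + e - 2 = e + 1 by omega] at h1
    have hpe : 1 ≤ p ^ e := Nat.one_le_pow _ _ (by omega)
    have hP : p ^ (Nat.succ 2 + e) = p ^ 2 * p ^ (e + 1) := by
      rw [← pow_add]; congr 1; omega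
    have hbig : 1331 ≤ p ^ (Nat.succ 2 + e) :=
      calc 1331 = 11 ^ 3 := by norm_num
        _ ≤ p ^ 3 := Nat.pow_le_pow_left hp 3
        _ ≤ _ := Nat.pow_le_pow_right (by omega) (Nat.le_add_right 3 e)
    refine Nat.le_of_mul_le_mul_left ?_ (show 0 < 59 * p ^ (e + 1) by positivity)
    calc 59 * p ^ (e + 1) * (49 * p) ^ 2 = 141659 * p ^ (Nat.succ 2 + e) := by rw [hP]; ring
      _ ≤ 3600 * (40 * (p ^ (Nat.succ 2 + e) - 1)) := by omega
      _ ≤ 3600 * (59 * p ^ (e + 1) * k ^ 2) := Nat.mul_le_mul_left _ h1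
      _ = 59 * p ^ (e + 1) * (60 * k) ^ 2 := by ring

/-- The arithmetic for the exceptional case of degree two. -/
theorem arith_two {p k o z : ℕ} (hp : 11 ≤ p) (hz : z ∣ p - 1) (hzk : 4 * z + o ≤ k)
    (ho : p ^ 2 - 1 ≤ o * (24 * z)) : 49 * p ≤ 60 * k := by
  obtain ⟨a, ha⟩ := hz
  have hzpos : 0 < z := Nat.pos_of_ne_zero (by rintro rfl; omega)
  have hapos : 0 < a := Nat.pos_of_ne_zero (by rintro rfl; omega)
  have hoa : (p + 1) * a ≤ 24 * o := by
    refine Nat.le_of_mul_le_mul_left ?_ hzpos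
    calc z * ((p + 1) * a) = (p + 1) * (p - 1) := by rw [ha]; ring
      _ = p ^ 2 - 1 := by rw [← Nat.sq_sub_sq, one_pow]
      _ ≤ o * (24 * z) := ho
      _ = z * (24 * o) := by ring
  rcases Nat.lt_or_ge p 31 with hp31 | hp31
  · rcases Nat.lt_or_ge a 10 with ha10 | ha10
    · interval_cases a <;> interval_cases p <;> omega
    · have : (p + 1) * 10 ≤ (p + 1) * a := Nat.mul_le_mul_left _ ha10
      have hz3 : z * 10 ≤ z * a := Nat.mul_le_mul_left _ ha10
      have : z ≤ 3 := by omega
      interval_cases z <;> interval_cases p <;> omega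
  rcases Nat.lt_or_ge a 10 with ha10 | ha10
  · interval_cases a <;> omega
  · refine Nat.le_of_mul_le_mul_left ?_ hapos
    have h1 : 4 * (p - 1) + a * o ≤ a * k := by
      rw [ha]
      calc 4 * (z * a) + a * o = a * (4 * z + o) := by ring
        _ ≤ a * k := Nat.mul_le_mul_left _ hzk
    have h2 : (p + 1) * a * a ≤ 24 * (a * o) := by
      calc (p + 1) * a * a ≤ 24 * o * a := Nat.mul_le_mul_right _ hoa
        _ = 24 * (a * o) := by ring
    have h3 : 98 * a * p + 480 ≤ 480 * p + 5 * ((p + 1) * a * a) := by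
      obtain ⟨b, rfl⟩ := Nat.exists_eq_add_of_le ha10
      nlinarith [Nat.zero_le (p * b * b), Nat.zero_le (p * b), Nat.zero_le (b * b)]
    calc a * (49 * p) = 49 * (a * p) := by ring
      _ ≤ 60 * (a * k) := by
          rw [mul_assoc 98 a p] at h3
          omega
      _ = a * (60 * k) := by ring

theorem card_scalars_dvd {Γ : Type u} [Group Γ] [Finite Γ] {p d : ℕ} [Fact p.Prime]
    (ρ : Γ →* Module.End (AlgebraicClosure (ZMod p)) (Fin d → AlgebraicClosure (ZMod p)))
    (hρ : IsPrim ρ) (hd : 1 ≤ d)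
    (hfrob : ∀ g v, ρ g (frobVec p d v) = frobVec p d (ρ g v)) :
    Nat.card (scalars ρ) ∣ p - 1 := by
  have := hρ.nt
  have hp : p.Prime := Fact.out
  choose c hc using fun z : scalars ρ => mem_scalars.mp z.2
  have hc0 : ∀ z, c z ≠ 0 := fun z h => by
    have h1 := hc z
    rw [h, zero_smul] at h1
    have h2 : ρ ((z : Γ) * (z : Γ)⁻¹) = 0 := by rw [map_mul, h1, zero_mul]
    rw [mul_inv_cancel, map_one] at h2
    exact one_ne_zero h2
  have hinjc : ∀ a b : AlgebraicClosure (ZMod p),
      a • (1 : Module.End (AlgebraicClosure (ZMod p)) (Fin d → AlgebraicClosure (ZMod p))) = b • 1 →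
        a = b := fun a b h =>
    smul_left_injective (AlgebraicClosure (ZMod p))
      (M := Module.End (AlgebraicClosure (ZMod p)) (Fin d → AlgebraicClosure (ZMod p)))
      (m := 1) one_ne_zero (a₁ := a) (a₂ := b) h
  let φ : scalars ρ →* AlgebraicClosure (ZMod p) :=
    { toFun := c
      map_one' := hinjc _ _ (by
        rw [← hc, OneMemClass.coe_one, map_one, one_smul])
      map_mul' := fun a b => hinjc _ _ (by
        rw [← hc, Subgroup.coe_mul, map_mul, hc, hc, smul_mul_smul_comm, one_mul]) }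
  have hφ : Function.Injective φ := fun a b h => Subtype.ext (hρ.inj (by
    rw [hc, hc, show c a = c b from h]))
  have : IsCyclic (scalars ρ) := isCyclic_of_subgroup_isDomain φ hφ
  rw [← IsCyclic.exponent_eq_card]
  refine Monoid.exponent_dvd_of_forall_pow_eq_one fun z => hφ ?_
  rw [map_pow, map_one]
  let i0 : Fin d := ⟨0, by omega⟩
  have h := congrFun (hfrob z (fun _ => 1)) i0
  rw [hc] at h
  simp only [LinearMap.smul_apply, Module.End.one_apply, frobVec, Pi.smul_apply, smul_eq_mul,
    one_pow, mul_one] at h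
  show c z ^ (p - 1) = 1
  refine mul_left_cancel₀ (hc0 z) ?_
  rw [← pow_succ', Nat.sub_add_cancel hp.one_le, mul_one, ← h]

/-- A self-centralizing minimal normal subgroup. -/
theorem config_bound {G : Type u} [Group G] [Finite G] [Group.IsSolvable G] {p d : ℕ}
    [hp : Fact p.Prime] (hp7 : 7 ≤ p) (V : Subgroup G) [V.Normal] (hexp : ∀ v ∈ V, v ^ p = 1)
    (hcent : centralizer (V : Set G) = V) (hcard : Nat.card V = p ^ d) (hd : 2 ≤ d)
    (hcore : ∀ U : Subgroup (G ⧸ V), U.Normal → IsPGroup p U → U = ⊥) :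
    49 * p ≤ 60 * Nat.card (ConjClasses G) := by
  classical
  obtain ⟨o, ho, hk, htr⟩ := exists_orbit_count_full V V le_rfl
  rw [show (centralizer (V : Set G)).index = Nat.card (G ⧸ V) by rw [hcent]; rfl, hcard] at ho
  set k := Nat.card (ConjClasses G) with hkdef
  set kH := Nat.card (ConjClasses (G ⧸ V)) with hkH
  have hkH1 : 1 ≤ kH := @Nat.card_pos _ ⟨ConjClasses.mk 1⟩ _
  have hp2 : 49 ≤ p ^ 2 := Nat.pow_le_pow_left hp7 2
  have hpd : p ^ 2 ≤ p ^ d := Nat.pow_le_pow_right hp.out.pos hd
  have ho1 : 1 ≤ o := by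
    by_contra! h
    interval_cases o
    omega
  by_contra! hcon
  -- few classes
  have hfew : ∀ b, kH ≤ b → b ≤ 6 → Nat.card (G ⧸ V) ≤ landau b := fun b hb hb6 =>
    (card_le_landau _ (G ⧸ V) rfl kH (by omega) le_rfl).trans (landau_mono hb hb6)
  rcases Nat.lt_or_ge p 11 with hp11 | hp11
  · have hp7' : p = 7 := by
      interval_cases p <;> first | rfl | exact absurd hp.out (by norm_num)
    subst hp7'
    have hkle : kH + o ≤ 5 := by omega
    have : kH ≤ 4 := by omega
    interval_cases hh : kH <;> (have := hfew _ le_rfl (by norm_num); simp only [landau] at this) <;>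
      (have h2 : o * Nat.card (G ⧸ V) ≤ o * _ := Nat.mul_le_mul_left o this) <;> omega
  by_cases h13 : ¬ (13 ≤ p ∨ d ≤ 6)
  · push Not at h13
    have hp' : p = 11 := by
      have : p ≠ 12 := fun h => by rw [h] at hp; exact absurd hp.out (by norm_num)
      omega
    subst hp'
    have hd7 : 11 ^ 7 ≤ 11 ^ d := Nat.pow_le_pow_right (by norm_num) (by omega)
    have hkle : kH + o ≤ 8 := by omega
    rcases Nat.lt_or_ge kH 7 with h7 | h7
    · rcases Nat.lt_or_ge kH 6 with h6 | h6
      · have := hfew 5 (by omega) (by norm_num)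
        simp only [landau] at this
        have h2 : o * Nat.card (G ⧸ V) ≤ 7 * 1806 := Nat.mul_le_mul (by omega) this
        norm_num at hd7 h2
        omega
      · have := hfew 6 (by omega) le_rfl
        simp only [landau] at this
        have h2 : o * Nat.card (G ⧸ V) ≤ 2 * 3263442 := Nat.mul_le_mul (by omega) this
        norm_num at hd7 h2
        omega
    · have ho' : o = 1 := by omega
      subst ho'
      have h := card_quot_le_of_transitive V hexp hcent hcard (by omega) (htr le_rfl) (by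
        rw [hcard]
        norm_num at hd7
        simp only [Set.mem_insert_iff, Set.mem_singleton_iff, not_or]
        refine ⟨?_, ?_, ?_, ?_, ?_, ?_⟩ <;> omega)
      have hh : Nat.card (G ⧸ V) ≤ d * d * 7 := h.trans (Nat.mul_le_mul_left _ (by omega))
      have hdd : d * d ≤ 4 ^ d := by
        rw [show (4 : ℕ) = 2 * 2 by norm_num, mul_pow]
        exact Nat.mul_le_mul Nat.lt_two_pow_self.le Nat.lt_two_pow_self.le
      have h8 : 8 * 4 ^ d ≤ 11 ^ d := by
        obtain ⟨e, rfl⟩ := Nat.exists_eq_add_of_le (show 3 ≤ d by omega)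
        have : 4 ^ e ≤ 11 ^ e := Nat.pow_le_pow_left (by norm_num) e
        rw [pow_add, pow_add]
        omega
      have : 0 < 4 ^ d := pow_pos (by norm_num) _
      omega
  rw [not_not] at h13
  -- the linear group
  obtain ⟨R⟩ := exists_secRep (p := p) V (⊥ : Subgroup G) bot_le
    ((commutator_le).mpr fun a ha b hb => by
      rw [mem_bot, commutatorElement_eq_one_iff_mul_comm]
      exact mem_centralizer_iff.mp (hcent.ge hb) a ha)
    fun a ha => mem_bot.mpr (hexp a ha)
  have hRd : R.d = d := Nat.pow_right_injective hp.out.two_le ((secRep_card R).symm.trans hcard)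
  have hker : ∀ g : G, R.ρ g = 1 ↔ g ∈ V := fun g => by
    rw [R.rho_eq_one]
    conv_rhs => rw [← hcent]
    refine ⟨fun h => mem_centralizer_iff.mpr fun a ha =>
      (commutatorElement_eq_one_iff_mul_comm.mp (mem_bot.mp (h a ha))).symm, fun h a ha => ?_⟩
    rw [mem_bot, commutatorElement_eq_one_iff_mul_comm]
    exact (mem_centralizer_iff.mp h a ha).symm
  let σ : G ⧸ V →* Module.End (AlgebraicClosure (ZMod p)) (Fin R.d → AlgebraicClosure (ZMod p)) :=
    QuotientGroup.lift V R.ρ fun g hg => (hker g).mpr hg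
  have hσ : Function.Injective σ := by
    rw [injective_iff_map_eq_one]
    intro q hq
    obtain ⟨g, rfl⟩ := QuotientGroup.mk_surjective q
    exact (QuotientGroup.eq_one_iff g).mpr ((hker g).mp hq)
  have hfrob : ∀ q v, σ q (frobVec p R.d v) = frobVec p R.d (σ q v) := fun q v => by
    obtain ⟨g, rfl⟩ := QuotientGroup.mk_surjective q
    exact secRep_frob R g v
  have hfin : finrank (AlgebraicClosure (ZMod p)) (Fin R.d → AlgebraicClosure (ZMod p)) = d := by
    rw [Module.finrank_fin_fun, hRd]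
  have fin : ∀ S kk : ℕ, 10 * Nat.card (G ⧸ V) ≤ S * kk → S ≤ sbnd p d → kk ≤ kH → False :=
    fun S kk h1 h2 h3 => absurd (arith_strong hp11 hd (h1.trans (Nat.mul_le_mul h2 h3)) ho hk)
      (not_le.mpr hcon)
  rcases strong_or_prim p hp11 (hfin.symm ▸ h13) (by omega) σ hσ hcore with hprim | hs
  swap
  · rw [hfin] at hs
    exact fin _ _ hs le_rfl le_rfl
  have hz := card_scalars_dvd σ hprim (by omega) hfrob
  have hH : Nat.card (G ⧸ V) = Nat.card (scalars σ) * (scalars σ).index :=
    (scalars σ).card_mul_index.symm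
  rcases Nat.lt_or_ge d 5 with h5 | h5
  · interval_cases d
    · rcases hprim.deg_two hfin with h | ⟨h24, h4⟩
      · exact fin _ _ h (by simp [sbnd]) le_rfl
      · rw [hH, h24, mul_comm (Nat.card (scalars σ)) 24] at ho
        exact absurd (arith_two hp11 hz (by omega) ho) (not_le.mpr hcon)
    · exact fin _ _ (hprim.deg_three hfin hp11) (by simp [sbnd]) le_rfl
    · exact fin _ _ (hprim.deg_four hfin hp11) (by simp [sbnd]) le_rfl
  have hsb : sbnd p d = 59 * p ^ (d - 2) := by rw [sbnd, if_neg (by omega), if_neg (by omega)]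
  by_cases h8 : d = 8
  swap
  · have h := hprim.deg_large hp11 (by omega) (by omega)
    rw [hfin] at h
    exact fin _ _ h hsb.ge le_rfl
  subst h8
  have h13' : 13 ≤ p := h13.resolve_right (by norm_num)
  rcases hprim.deg_eight hfin hp11 with h | ⟨hidx, h2z, h23, hz2⟩
  · exact fin _ _ h hsb.ge le_rfl
  rcases Nat.lt_or_ge p 17 with hp17 | hp17
  · have hp' : p = 13 := by
      interval_cases p <;> first | rfl | exact absurd hp.out (by norm_num)
    subst hp'
    have h1 : 815730720 ≤ o * (Nat.card (scalars σ) * 132120576) := by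
      refine le_trans (by norm_num at ho ⊢; exact ho) (Nat.mul_le_mul_left o ?_)
      rw [hH]
      exact Nat.mul_le_mul_left _ hidx
    rcases eq_or_ne (Nat.card (scalars σ)) 2 with hzz | hzz
    · have := hz2 hzz
      rw [hzz] at h1
      omega
    · have := Nat.le_of_dvd Nat.card_pos h2z
      have : 4 ≤ Nat.card (scalars σ) := by omega
      omega
  · refine fin _ _ ((hprim.rq_index.le (a' := 59 * p ^ 6) (c' := 10) one_pos ?_)) hsb.ge le_rfl
    have : 17 ^ 6 ≤ p ^ 6 := Nat.pow_le_pow_left hp17 6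
    omega

end CfsgLib.ClassLowerSharp
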