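import Mathlib
import Cfsg.Agent.Lib.ClassLowerSharp.Final
import Cfsg.Agent.Lib.ClassLowerSharp.Extension
import Cfsg.Agent.Lib.Cores.Fitting

/-!
A solvable group of order divisible by `p ^ 2` has at least `49 p / 60` classes.
-/

set_option autoImplicit false
set_option linter.style.haveILetI false

namespace CfsgLib.ClassLowerSharp

open Subgroup Cfsg CfsgLib.ClassLower
open scoped commutatorElement

universe u

theorem mulAut_comm_of_isCyclic {A : Type u} [Group A] (hA : IsCyclic A) (a b : MulAut A) :
    a * b = b * a := by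
  obtain ⟨m, hm⟩ := a.toMonoidHom.map_cyclic
  obtain ⟨n, hn⟩ := b.toMonoidHom.map_cyclic
  refine MulEquiv.ext fun x => ?_
  show a (b x) = b (a x)
  have h1 : ∀ y, a y = y ^ m := hm
  have h2 : ∀ y, b y = y ^ n := hn
  rw [h1, h2, h1, h2, ← zpow_mul, ← zpow_mul, mul_comm]

/-- A self-centralizing normal subgroup of order `p ^ 2` with a normal subgroup of order `p`. -/
theorem rank_two_bound {G : Type u} [Group G] [Finite G] {p : ℕ} [hp : Fact p.Prime] (hp5 : 5 ≤ p)
    (P V : Subgroup G) [P.Normal] [V.Normal] (hVP : V ≤ P) (hcP : centralizer (P : Set G) = P)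
    (hP : Nat.card P = p ^ 2) (hV : Nat.card V = p) (hidx : ¬ p ∣ P.index) :
    49 * p ≤ 60 * Nat.card (ConjClasses G) := by
  classical
  have hPc : ∀ a ∈ P, ∀ b ∈ P, a * b = b * a := fun a ha b hb =>
    mem_centralizer_iff.mp (hcP.ge hb) a ha
  let W : Subgroup (G ⧸ V) := P.map (QuotientGroup.mk' V)
  have : W.Normal := Normal.map inferInstance _ (QuotientGroup.mk'_surjective V)
  have hWcard : Nat.card W = p := by
    have h := Subgroup.card_mul_index (V.subgroupOf P)
    rw [Nat.card_congr (subgroupOfEquivOfLe hVP).toEquiv, hV, hP, pow_two] at h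
    have h2 : (V.subgroupOf P).index = p := Nat.eq_of_mul_eq_mul_left hp.out.pos h
    have e := Subgroup.index_ker ((QuotientGroup.mk' V).subgroupMap P)
    rw [MonoidHom.range_eq_top.mpr ((QuotientGroup.mk' V).subgroupMap_surjective P), card_top] at e
    rw [← e, ← h2]
    congr 1
    ext a
    rw [MonoidHom.mem_ker, mem_subgroupOf, Subtype.ext_iff]
    exact QuotientGroup.eq_one_iff (a : G)
  let φ1 : G →* MulAut V := MulAut.conjNormal
  let φ2 : G →* MulAut W := (MulAut.conjNormal (H := W)).comp (QuotientGroup.mk' V)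
  let K : Subgroup G := φ1.ker ⊓ φ2.ker
  have hcomm : ∀ g h : G, ⁅g, h⁆ ∈ K := fun g h => by
    refine Subgroup.mem_inf.mpr ⟨?_, ?_⟩ <;> rw [MonoidHom.mem_ker, map_commutatorElement,
      commutatorElement_eq_one_iff_mul_comm]
    · exact mulAut_comm_of_isCyclic (isCyclic_of_prime_card hV) _ _
    · exact mulAut_comm_of_isCyclic (isCyclic_of_prime_card hWcard) _ _
  have hKP : K ≤ P := by
    intro g hg
    have hfixV : ∀ v ∈ V, g * v * g⁻¹ = v := fun v hv => by
      have h := congrArg (fun σ : MulAut V => (σ ⟨v, hv⟩ : G)) (MonoidHom.mem_ker.mp hg.1)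
      simpa [φ1, MulAut.conjNormal_apply] using h
    have hmod : ∀ x ∈ P, x⁻¹ * (g * x * g⁻¹) ∈ V := fun x hx => by
      have h := congrArg (fun σ : MulAut W => (σ ⟨_, mem_map_of_mem _ hx⟩ : G ⧸ V))
        (MonoidHom.mem_ker.mp hg.2)
      simp only [φ2, MonoidHom.comp_apply, MulAut.conjNormal_apply, MulAut.one_apply] at h
      rw [← QuotientGroup.eq]
      exact h.symm
    have hgp : g ^ p ∈ P := by
      refine hcP.le (mem_centralizer_iff.mpr fun x hx => ?_)
      obtain ⟨v, hv, hgx⟩ : ∃ v ∈ V, g * x * g⁻¹ = x * v :=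
        ⟨_, hmod x hx, by rw [mul_inv_cancel_left]⟩
      have hj : ∀ j : ℕ, g ^ j * x * (g ^ j)⁻¹ = x * v ^ j := by
        intro j
        induction j with
        | zero => simp
        | succ j ih =>
          calc g ^ (j + 1) * x * (g ^ (j + 1))⁻¹ = g * (g ^ j * x * (g ^ j)⁻¹) * g⁻¹ := by
                rw [pow_succ']; group
            _ = g * x * g⁻¹ * (g * v ^ j * g⁻¹) := by rw [ih]; group
            _ = x * v ^ (j + 1) := by
                rw [hfixV _ (pow_mem hv j), hgx, mul_assoc, ← pow_succ']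
      have hvp : v ^ p = 1 := by
        rw [← hV]; exact congrArg Subtype.val (pow_card_eq_one' (x := (⟨v, hv⟩ : V)))
      have h := hj p
      rw [hvp, mul_one, mul_inv_eq_iff_eq_mul] at h
      exact h.symm
    rw [← QuotientGroup.eq_one_iff]
    by_contra hne
    refine hidx ?_
    have h1 : (g : G ⧸ P) ^ p = 1 := by
      rw [← QuotientGroup.mk_pow, QuotientGroup.eq_one_iff]; exact hgp
    show p ∣ Nat.card (G ⧸ P)
    rw [← orderOf_eq_prime h1 hne]
    exact orderOf_dvd_natCard _
  have hab : P.index ≤ Nat.card (ConjClasses (G ⧸ P)) := by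
    show Nat.card (G ⧸ P) ≤ _
    refine Nat.card_le_card_of_injective ConjClasses.mk fun a b h => ?_
    obtain ⟨c, hc⟩ := isConj_iff.mp (ConjClasses.mk_eq_mk_iff_isConj.mp h)
    obtain ⟨a, rfl⟩ := QuotientGroup.mk_surjective a
    obtain ⟨c, rfl⟩ := QuotientGroup.mk_surjective c
    rw [← hc, ← QuotientGroup.mk_mul, ← QuotientGroup.mk_inv, ← QuotientGroup.mk_mul, eq_comm,
      QuotientGroup.eq]
    have h1 : ⁅c, a⁆ ∈ P := hKP (hcomm c a)
    have h2 := Normal.conj_mem (inferInstance : P.Normal) _ (inv_mem h1) a⁻¹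
    convert h2 using 1
    group
  obtain ⟨o, ho, hk, -⟩ := exists_orbit_count_full P P le_rfl
  rw [hcP, hP] at ho
  have h4 := sq_ge_four_mul (a := P.index) (b := o) (k := Nat.card (ConjClasses G)) (by omega)
  have hp2 : 25 ≤ p ^ 2 := Nat.pow_le_pow_left hp5 2
  refine (Nat.pow_le_pow_iff_left (n := 2) (by norm_num)).mp ?_
  rw [mul_pow, mul_pow]
  have h5 : 4 * (p ^ 2 - 1) ≤ 4 * P.index * o :=
    calc 4 * (p ^ 2 - 1) ≤ 4 * (o * P.index) := Nat.mul_le_mul_left _ ho
      _ = 4 * P.index * o := by ring
  omega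

theorem sharp_bound (p : ℕ) [hp : Fact p.Prime] (n : ℕ) :
    ∀ (G : Type u) [Group G] [Finite G] [Group.IsSolvable G], Nat.card G = n →
      p ^ 2 ∣ Nat.card G → 49 * p ≤ 60 * Nat.card (ConjClasses G) := by
  induction n using Nat.strong_induction_on with
  | _ n IH =>
  intro G _ _ _ hn hdvd
  classical
  set k := Nat.card (ConjClasses G) with hk
  have hk1 : 1 ≤ k := @Nat.card_pos _ ⟨ConjClasses.mk 1⟩ _
  have hple : p ^ 2 ≤ Nat.card G := Nat.le_of_dvd Nat.card_pos hdvd
  rcases Nat.lt_or_ge p 7 with hp7 | hp7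
  · by_contra! hcon
    have hp2 := hp.out.two_le
    rcases Nat.lt_or_ge p 5 with hp5 | hp5
    · have hp4 : p ≠ 4 := fun h => by rw [h] at hp; exact absurd hp.out (by norm_num)
      have := card_le_landau _ G rfl 2 (by norm_num) (by omega)
      simp only [landau] at this
      have : 2 ^ 2 ≤ p ^ 2 := Nat.pow_le_pow_left hp2 2
      omega
    · have hp' : p = 5 := by
        interval_cases p
        · rfl
        · exact absurd hp.out (by norm_num)
      subst hp'
      have := card_le_landau _ G rfl 4 (by norm_num) (by omega)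
      simp only [landau] at this
      have h25 : Nat.card G = 25 := by
        obtain ⟨t, ht⟩ := hdvd
        omega
      have hG : IsMulCommutative G :=
        IsPGroup.isMulCommutative_of_card_eq_prime_sq (p := 5) (by rw [h25]; norm_num)
      have : Nat.card G ≤ k := by
        refine Nat.card_le_card_of_injective ConjClasses.mk fun a b h => ?_
        obtain ⟨c, hc⟩ := isConj_iff.mp (ConjClasses.mk_eq_mk_iff_isConj.mp h)
        rw [hG.is_comm.comm c a, mul_inv_cancel_right] at hc
        exact hc
      omega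
  by_cases hquot : ∃ N : Subgroup G, ∃ _ : N.Normal, N ≠ ⊥ ∧ p ^ 2 ∣ N.index
  · obtain ⟨N, hNn, hN1, hN⟩ := hquot
    have hlt : Nat.card (G ⧸ N) < n := by
      rw [← hn, card_eq_card_quotient_mul_card_subgroup N]
      exact lt_mul_of_one_lt_right Nat.card_pos
        (Finite.one_lt_card_iff_nontrivial.mpr ((Subgroup.nontrivial_iff_ne_bot _).mpr hN1))
    refine (IH _ hlt (G ⧸ N) rfl hN).trans (Nat.mul_le_mul_left 60 ?_)
    exact Nat.card_le_card_of_surjective _
      (ConjClasses.map_surjective (QuotientGroup.mk'_surjective N))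
  replace hquot : ∀ N : Subgroup G, N.Normal → N ≠ ⊥ → ¬ p ^ 2 ∣ N.index :=
    fun N h1 h2 h3 => hquot ⟨N, h1, h2, h3⟩
  have hcop : ∀ (q : ℕ) [Fact q.Prime] (N : Subgroup G), N.Normal → N ≠ ⊥ → IsPGroup q N →
      q = p := by
    intro q hq N hN hN1 hNq
    by_contra hne
    refine hquot N hN hN1 ?_
    obtain ⟨j, hj⟩ := hNq.exists_card_eq
    refine (Nat.Coprime.pow 2 j ((Nat.coprime_primes hp.out hq.out).mpr (Ne.symm hne))).dvd_of_dvd_mul_left ?_
    rw [← hj, N.card_mul_index]
    exact hdvd
  have hGnt : Nontrivial G := by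
    refine Finite.one_lt_card_iff_nontrivial.mp ?_
    have : 7 ^ 2 ≤ p ^ 2 := Nat.pow_le_pow_left hp7 2
    omega
  obtain ⟨V, -, hV, hV1, hVmin⟩ :=
    CfsgLib.SolvableStructure.exists_minimal_normal (N := (⊤ : Subgroup G)) inferInstance top_ne_bot
  have := hV
  obtain ⟨r, _, hr, _, _, hexp, hcomm⟩ :=
    CfsgLib.SolvableStructure.minimal_normal_prime hV1 hVmin
  have : Fact r.Prime := ⟨hr⟩
  obtain rfl : r = p := hcop r V hV hV1 (isPGroup_of_pow_eq_one hexp)
  obtain ⟨d, hcardV⟩ := (isPGroup_of_pow_eq_one hexp).exists_card_eq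
  have hd1 : 1 ≤ d := by
    by_contra! h
    interval_cases d
    exact hV1 (Subgroup.card_eq_one.mp hcardV)
  have hsplit : Nat.card G = r ^ d * V.index := by rw [← hcardV, V.card_mul_index]
  -- normal nilpotent subgroups are groups of prime power order
  have hnil : ∀ (U : Subgroup G) [U.Normal], Group.IsNilpotent U → ∀ q : ℕ, q.Prime →
      q ∣ Nat.card U → q = r := by
    intro U _ hU q hq hqU
    have := Fact.mk hq
    obtain ⟨Q⟩ : Nonempty (Sylow q U) := inferInstance
    have hQn : (Q : Subgroup U).Normal := inferInstance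
    have : (Q : Subgroup U).Characteristic := Q.characteristic_of_normal hQn
    refine hcop q ((Q : Subgroup U).map U.subtype) inferInstance ?_ (Q.isPGroup'.map _)
    rw [Ne, Subgroup.map_eq_bot_iff_of_injective _ U.subtype_injective]
    exact Q.ne_bot_of_dvd_card hqU
  rcases Nat.lt_or_ge d 2 with hd | hd
  · obtain rfl : d = 1 := by omega
    rw [pow_one] at hcardV hsplit
    have hVidx : r ∣ V.index ∧ ¬ r ^ 2 ∣ V.index := by
      refine ⟨?_, hquot V hV hV1⟩
      rw [hsplit, pow_two] at hdvd
      exact Nat.dvd_of_mul_dvd_mul_left hr.pos hdvd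
    obtain ⟨P⟩ : Nonempty (Sylow r G) := inferInstance
    have hPcard : Nat.card (P : Subgroup G) = r ^ 2 := by
      rw [P.card_eq_multiplicity]
      congr 1
      refine le_antisymm ?_ ((Nat.Prime.pow_dvd_iff_le_factorization hr Nat.card_pos.ne').mp hdvd)
      by_contra! h
      have h3 := (Nat.Prime.pow_dvd_iff_le_factorization hr Nat.card_pos.ne').mpr
        (show 3 ≤ _ from h)
      rw [hsplit, pow_succ'] at h3
      exact hVidx.2 (Nat.dvd_of_mul_dvd_mul_left hr.pos h3)
    set F := fittingSubgroup G with hF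
    have hFn : F.Normal := Cores.fittingSubgroup_normal G
    have hFnil : Group.IsNilpotent F := Cores.isNilpotent_fittingSubgroup
    obtain ⟨j, hj⟩ : ∃ j, Nat.card F = r ^ j := by
      refine ⟨_, Nat.eq_prime_pow_of_unique_prime_dvd Nat.card_pos.ne' fun {q} hq hqF => ?_⟩
      exact hnil F hFnil q hq hqF
    have hFP : F ≤ P := by
      have : F ⊔ (P : Subgroup G) = P :=
        P.is_maximal' (IsPGroup.to_sup_of_normal_left (IsPGroup.of_card hj) P.isPGroup') le_sup_right
      exact le_sup_left.trans this.le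
    have hVF : V ≤ F := by
      refine Cores.le_fittingSubgroup ?_
      exact (isPGroup_of_pow_eq_one hexp).isNilpotent
    have hCF : centralizer (F : Set G) ≤ F := Cores.centralizer_fittingSubgroup_le
    have hPc : IsMulCommutative (P : Subgroup G) :=
      IsPGroup.isMulCommutative_of_card_eq_prime_sq hPcard
    have hPC : (P : Subgroup G) ≤ centralizer (F : Set G) := fun a ha =>
      mem_centralizer_iff.mpr fun b hb =>
        congrArg Subtype.val (hPc.is_comm.comm (⟨b, hFP hb⟩ : (P : Subgroup G)) ⟨a, ha⟩)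
    have hFeq : F = P := le_antisymm hFP (hPC.trans hCF)
    refine rank_two_bound (by omega) F V hVF (le_antisymm hCF (hFeq ▸ hPC)) (hFeq ▸ hPcard) hcardV ?_
    rw [hFeq]
    exact P.not_dvd_index
  -- the rank is at least two
  have huniq : ∀ N : Subgroup G, N.Normal → N ≠ ⊥ → V ≤ N := by
    intro N hN hN1
    have := hN
    rcases hVmin (V ⊓ N) inferInstance inf_le_left with h | h
    swap
    · exact inf_eq_left.mp h
    exfalso
    refine hquot N hN hN1 (dvd_trans ?_ (?_ : r ^ d ∣ N.index))
    · exact pow_dvd_pow r hd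
    · have h2 : N.relIndex V = Nat.card V := by
        rw [← inf_relIndex_right, inf_comm, h, relIndex_bot_left]
      rw [← hcardV, ← h2]
      exact Subgroup.relIndex_dvd_index_of_normal N V
  have hcenter : ∀ a ∈ V, ∀ b ∈ V, a * b = b * a := fun a ha b hb =>
    CfsgLib.SolvableStructure.commute_of_isMulCommutative (h := hcomm) ha hb
  have hcore : ∀ U : Subgroup (G ⧸ V), U.Normal → IsPGroup r U → U = ⊥ := by
    intro U hU hUr
    by_contra hU1
    obtain ⟨j, hj⟩ := hUr.exists_card_eq
    have hj1 : j = 1 := by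
      have hj0 : j ≠ 0 := by
        rintro rfl
        exact hU1 (Subgroup.card_eq_one.mp hj)
      by_contra hj1
      refine hquot V hV hV1 (dvd_trans (pow_dvd_pow r (show 2 ≤ j by omega)) ?_)
      rw [← hj]
      exact U.card_subgroup_dvd_card
    subst hj1
    rw [pow_one] at hj
    let U' := U.comap (QuotientGroup.mk' V)
    have hU'n : U'.Normal := hU.comap _
    have hVU' : V ≤ U' := fun v hv => by
      show (v : G ⧸ V) ∈ U
      rw [(QuotientGroup.eq_one_iff v).mpr hv]; exact one_mem U
    have hidx : U'.index = U.index :=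
      Subgroup.index_comap_of_surjective U (QuotientGroup.mk'_surjective V)
    have hUidx : r * U.index = V.index := by rw [← hj]; exact U.card_mul_index
    refine not_normal_extension V U' hVU' hexp hcardV hd huniq ?_ ?_
    · have h := Subgroup.relIndex_mul_index hVU'
      rw [hidx, ← hUidx] at h
      exact Nat.eq_of_mul_eq_mul_right (Nat.pos_of_ne_zero Subgroup.index_ne_zero_of_finite) h
    · rw [hidx]
      intro h
      refine hquot V hV hV1 ?_
      rw [← hUidx, pow_two]
      exact Nat.mul_dvd_mul_left r h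
  have hcent : centralizer (V : Set G) = V := by
    refine le_antisymm ?_ fun a ha => mem_centralizer_iff.mpr fun b hb => hcenter b hb a ha
    by_contra hne
    let C' := (centralizer (V : Set G)).map (QuotientGroup.mk' V)
    have hC'n : C'.Normal := Normal.map inferInstance _ (QuotientGroup.mk'_surjective V)
    have hC'1 : C' ≠ ⊥ := fun h => hne fun g hg => by
      have : (g : G ⧸ V) ∈ C' := mem_map_of_mem _ hg
      rw [h, mem_bot] at this
      exact (QuotientGroup.eq_one_iff g).mp this
    obtain ⟨M, hMC, hM, hM1, hMmin⟩ :=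
      CfsgLib.SolvableStructure.exists_minimal_normal (N := C') hC'n hC'1
    have := hM
    obtain ⟨q, _, hq, _, _, hqexp, _⟩ := CfsgLib.SolvableStructure.minimal_normal_prime hM1 hMmin
    have : Fact q.Prime := ⟨hq⟩
    have hMp : IsPGroup q M := isPGroup_of_pow_eq_one hqexp
    let U := M.comap (QuotientGroup.mk' V)
    have hUn : U.Normal := hM.comap _
    have hUC : U ≤ centralizer (V : Set G) := by
      intro g hg
      obtain ⟨c, hc, hce⟩ := hMC hg
      obtain ⟨v, hv, rfl⟩ : ∃ v ∈ V, g = c * v :=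
        ⟨_, QuotientGroup.eq.mp hce, by rw [mul_inv_cancel_left]⟩
      exact mul_mem hc (mem_centralizer_iff.mpr fun b hb => hcenter b hb v hv)
    let π : U →* M := (QuotientGroup.mk' V).subgroupComap M
    have hker : π.ker ≤ center U := fun a ha => mem_center_iff.mpr fun b => Subtype.ext <| by
      have haV : (a : G) ∈ V := by
        rw [MonoidHom.mem_ker, Subtype.ext_iff] at ha
        exact (QuotientGroup.eq_one_iff (a : G)).mp ha
      exact (mem_centralizer_iff.mp (hUC b.2) a haV).symm
    have : Group.IsNilpotent M := hMp.isNilpotent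
    have hUnil : Group.IsNilpotent U := Subgroup.isNilpotent_of_ker_le_center π hker
    obtain ⟨m, hm⟩ := hMp.exists_card_eq
    have hm0 : m ≠ 0 := by
      rintro rfl
      exact hM1 (Subgroup.card_eq_one.mp hm)
    have hqU : q ∣ Nat.card U := by
      refine (dvd_trans ?_ (Subgroup.card_dvd_of_surjective π
        ((QuotientGroup.mk' V).subgroupComap_surjective_of_surjective M
          (QuotientGroup.mk'_surjective V))))
      rw [hm]; exact dvd_pow_self q hm0
    have hqr : q = r := hnil U hUnil q hq hqU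
    subst hqr
    exact hM1 (hcore M hM hMp)
  exact config_bound hp7 V hexp hcent hcardV hd hcore

end CfsgLib.ClassLowerSharp
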